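import Mathlib
import Cfsg.Agent.Eq.Def_Solvable
import Cfsg.Agent.Constrained.Basic

/-!
# Groups whose Sylow `p`-subgroups behave as in a rank one group of Lie type in characteristic `p`

`Data p U h w`: `U` is a Sylow `p`-subgroup, `h` normalizes it, acts without fixed points and has order
dividing `p - 1` modulo `U`; `N(U)/U` is cyclic; `U` is regular on the conjugates of `U` other than
itself; an element normalizing all conjugates of `U` has sixth power `1`.

`central_normalizing_eq_one`: in a finite group `Q` with trivial `p`-core and a normal subgroup `X`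
of `p`-power index of this kind, a `p`-element commuting with the normalizer of a Sylow subgroup is `1`.
-/

set_option autoImplicit false

namespace CfsgLib.RankOneSylow

open Subgroup

/-- See the module docstring. -/
structure Data (p : ℕ) {X : Type*} [Group X] (U : Subgroup X) (h w : X) : Prop where
  pgroup : IsPGroup p U
  sylow : ¬ p ∣ U.index
  h_norm : h ∈ normalizer (U : Set X)
  h_fpf : ∀ u ∈ U, h * u = u * h → u = 1
  h_pow : h ^ (p - 1) ∈ U
  cyc : ∃ g ∈ normalizer (U : Set X), ∀ y ∈ normalizer (U : Set X), ∃ k : ℕ, (g ^ k)⁻¹ * y ∈ U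
  w_not : w ∉ normalizer (U : Set X)
  trans : ∀ x : X, x ∉ normalizer (U : Set X) →
    ∃ u ∈ U, U.map (MulAut.conj x).toMonoidHom = U.map (MulAut.conj (u * w)).toMonoidHom
  free : ∀ u ∈ U, u ∈ normalizer ((U.map (MulAut.conj w).toMonoidHom : Subgroup X) : Set X) → u = 1
  kernel : ∀ k : X, (∀ x : X, k ∈ normalizer ((U.map (MulAut.conj x).toMonoidHom : Subgroup X) : Set X)) →
    k ^ 6 = 1

/-- `X` has `Data`. -/
def IsRankOne (p : ℕ) (X : Type*) [Group X] : Prop :=
  ∃ (U : Subgroup X) (h w : X), Data p U h w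

variable {X Y : Type*} [Group X] [Group Y]

theorem map_conj_map (f : X →* Y) (U : Subgroup X) (x : X) :
    (U.map (MulAut.conj x).toMonoidHom).map f = (U.map f).map (MulAut.conj (f x)).toMonoidHom := by
  rw [map_map, map_map]
  congr 1
  ext a
  simp

theorem mem_normalizer_map_iff (e : X ≃* Y) (U : Subgroup X) (x : X) :
    e x ∈ normalizer ((U.map e.toMonoidHom : Subgroup Y) : Set Y) ↔ x ∈ normalizer (U : Set X) := by
  simp only [mem_normalizer_iff]
  constructor
  · intro h a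
    have := h (e a)
    simpa [← map_inv, ← map_mul, mem_map_equiv] using this
  · intro h b
    obtain ⟨a, rfl⟩ := e.surjective b
    simpa [← map_inv, ← map_mul, mem_map_equiv] using h a

/-- Transport along an isomorphism. -/
theorem Data.map {p : ℕ} {U : Subgroup X} {h w : X} (d : Data p U h w) (e : X ≃* Y) :
    Data p (U.map e.toMonoidHom) (e h) (e w) := by
  set f := e.toMonoidHom with hf
  have hU : ∀ a, e a ∈ U.map f ↔ a ∈ U := fun a => by simp [hf, mem_map_equiv]
  refine ⟨d.pgroup.map f, ?_, ?_, ?_, ?_, ?_, ?_, ?_, ?_, ?_⟩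
  · rw [index_map_of_bijective e.bijective]; exact d.sylow
  · exact (mem_normalizer_map_iff e U h).mpr d.h_norm
  · rintro _ ⟨u, hu, rfl⟩ hc
    have : h * u = u * h := e.injective (by simpa [hf, map_mul] using hc)
    simp [d.h_fpf u hu this]
  · rw [← map_pow]; exact (hU _).mpr d.h_pow
  · obtain ⟨g, hg, hgy⟩ := d.cyc
    refine ⟨e g, (mem_normalizer_map_iff e U g).mpr hg, fun y hy => ?_⟩
    obtain ⟨y, rfl⟩ := e.surjective y
    obtain ⟨k, hk⟩ := hgy y ((mem_normalizer_map_iff e U y).mp hy)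
    exact ⟨k, by simpa [← map_pow, ← map_inv, ← map_mul, hU] using hk⟩
  · exact fun hw => d.w_not ((mem_normalizer_map_iff e U w).mp hw)
  · intro x hx
    obtain ⟨x, rfl⟩ := e.surjective x
    obtain ⟨u, hu, hux⟩ := d.trans x (fun hx' => hx ((mem_normalizer_map_iff e U x).mpr hx'))
    refine ⟨e u, (hU u).mpr hu, ?_⟩
    have := congrArg (Subgroup.map f) hux
    rw [map_conj_map, map_conj_map] at this
    simpa [hf] using this
  · rintro _ ⟨u, hu, rfl⟩ hn
    have : u ∈ normalizer ((U.map (MulAut.conj w).toMonoidHom : Subgroup X) : Set X) := by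
      rw [← mem_normalizer_map_iff e, map_conj_map]
      exact hn
    simp [d.free u hu this]
  · intro k hk
    obtain ⟨k, rfl⟩ := e.surjective k
    rw [← map_pow, d.kernel k (fun x => ?_), map_one]
    rw [← mem_normalizer_map_iff e, map_conj_map]
    exact hk (e x)

theorem IsRankOne.of_mulEquiv {p : ℕ} (e : X ≃* Y) : IsRankOne p X → IsRankOne p Y :=
  fun ⟨_, _, _, d⟩ => ⟨_, _, _, d.map e⟩

/-- A rank one group has `Data` on each of its Sylow `p`-subgroups. -/
theorem IsRankOne.exists_on [Finite X] {p : ℕ} [Fact p.Prime] (hX : IsRankOne p X) {U' : Subgroup X}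
    (hp : IsPGroup p U') (hi : ¬ p ∣ U'.index) : ∃ h w, Data p U' h w := by
  obtain ⟨U, h, w, d⟩ := hX
  obtain ⟨g, hg⟩ := MulAction.exists_smul_eq X (d.pgroup.toSylow d.sylow) (hp.toSylow hi)
  refine ⟨MulAut.conj g h, MulAut.conj g w, ?_⟩
  have he : U.map (MulAut.conj g).toMonoidHom = U' := congrArg (fun P : Sylow p X => (P : Subgroup X)) hg
  exact he ▸ d.map (MulAut.conj g)

/-- An automorphism of `p`-power order of a cyclic group fixes every element of order less than `p`. -/
theorem pow_eq_self_of_small {G : Type*} [Group G] [Finite G] {p k a n : ℕ} [Fact p.Prime] {y : G}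
    (hy : y ^ n = 1) (hn : 0 < n) (hnp : ∀ m, m ∣ n → m.totient < p) (hfix : y ^ (k ^ p ^ a) = y) : y ^ k = y := by
  set m := orderOf y with hm
  have hmdvd : m ∣ n := orderOf_dvd_of_pow_eq_one hy
  have hmn : m ≤ n := Nat.le_of_dvd hn hmdvd
  have hm0 : 0 < m := orderOf_pos y
  haveI : NeZero m := ⟨hm0.ne'⟩
  have h1 : ((k : ZMod m)) ^ p ^ a = 1 := by
    have : k ^ p ^ a ≡ 1 [MOD m] := by
      rw [hm, ← pow_eq_pow_iff_modEq, hfix, pow_one]
    simpa using (ZMod.natCast_eq_natCast_iff _ _ m).mpr this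
  have hu : IsUnit (k : ZMod m) := by
    refine IsUnit.of_mul_eq_one ((k : ZMod m) ^ (p ^ a - 1)) ?_
    rw [← pow_succ', Nat.sub_add_cancel (Nat.one_le_pow _ _ (Fact.out : p.Prime).pos), h1]
  obtain ⟨v, hv⟩ := hu
  have hv1 : v = 1 := by
    rw [← orderOf_eq_one_iff]
    have h2 : orderOf v ∣ p ^ a := orderOf_dvd_of_pow_eq_one (Units.ext (by push_cast; rw [hv, h1]))
    have h3 : orderOf v ∣ m.totient := by
      rw [← ZMod.card_units_eq_totient]; exact orderOf_dvd_card
    obtain ⟨i, _, hi⟩ := (Nat.dvd_prime_pow Fact.out).mp h2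
    rcases Nat.eq_zero_or_pos i with h0 | h0
    · rw [hi, h0, pow_zero]
    · exfalso
      have : p ∣ m.totient := (dvd_pow_self p h0.ne').trans (hi ▸ h3)
      have := Nat.le_of_dvd (Nat.totient_pos.mpr hm0) this
      have := hnp m hmdvd
      omega
  have h4 : k ≡ 1 [MOD m] := (ZMod.natCast_eq_natCast_iff _ _ m).mp (by rw [← hv, hv1]; simp)
  nth_rewrite 2 [← pow_one y]
  exact pow_eq_pow_iff_modEq.mpr h4

/-- If a `p`-element `t` normalizes a cyclic subgroup, it centralizes its elements of order less than `p`. -/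
theorem conj_eq_self_of_small {G : Type*} [Group G] [Finite G] {p a n : ℕ} [Fact p.Prime] {g y t : G}
    (ht : t ^ p ^ a = 1) (hg : t * g * t⁻¹ ∈ zpowers g) (hy : y ∈ zpowers g) (hyn : y ^ n = 1)
    (hn : 0 < n) (hnp : ∀ m, m ∣ n → m.totient < p) : t * y * t⁻¹ = y := by
  obtain ⟨k, hk⟩ := (mem_powers_iff_mem_zpowers.mpr hg : t * g * t⁻¹ ∈ Submonoid.powers g)
  obtain ⟨b, rfl⟩ := (mem_powers_iff_mem_zpowers.mpr hy : y ∈ Submonoid.powers g)
  change g ^ k = t * g * t⁻¹ at hk
  have step : t * (g ^ b) * t⁻¹ = (g ^ b) ^ k := by rw [← conj_pow, ← hk, ← pow_mul, ← pow_mul, mul_comm]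
  rw [step]
  have iter : ∀ i : ℕ, t ^ i * (g ^ b) * (t ^ i)⁻¹ = (g ^ b) ^ (k ^ i) := by
    intro i
    induction i with
    | zero => simp
    | succ i ih =>
      calc t ^ (i + 1) * g ^ b * (t ^ (i + 1))⁻¹ = t * (t ^ i * g ^ b * (t ^ i)⁻¹) * t⁻¹ := by
            rw [pow_succ']; group
        _ = (t * g ^ b * t⁻¹) ^ (k ^ i) := by rw [ih, conj_pow]
        _ = ((g ^ b) ^ k) ^ (k ^ i) := by rw [step]
        _ = (g ^ b) ^ (k ^ (i + 1)) := by rw [← pow_mul, pow_succ']
  refine pow_eq_self_of_small hyn hn hnp (a := a) ?_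
  rw [← iter, ht]; simp

theorem eq_one_of_pow_six {G : Type*} [Group G] {p : ℕ} [Fact p.Prime] (hp : 5 ≤ p) {S : Subgroup G}
    (hS : IsPGroup p S) {x : G} (hx : x ∈ S) (h6 : x ^ 6 = 1) : x = 1 := by
  obtain ⟨i, hi⟩ := hS ⟨x, hx⟩
  have hi' : x ^ p ^ i = 1 := congrArg Subtype.val hi
  have hcop : Nat.Coprime 6 (p ^ i) := by
    refine Nat.Coprime.pow_right i (Nat.Coprime.symm ((Fact.out : p.Prime).coprime_iff_not_dvd.mpr ?_))
    intro h
    have h' := Nat.le_of_dvd (by norm_num) h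
    interval_cases p <;> revert h <;> norm_num
    exact absurd (Fact.out : Nat.Prime 6) (by norm_num)
  have := Nat.dvd_gcd (orderOf_dvd_of_pow_eq_one h6) (orderOf_dvd_of_pow_eq_one hi')
  rw [hcop.gcd_eq_one, Nat.dvd_one, orderOf_eq_one_iff] at this
  exact this

/-- The main lemma (see the module docstring). -/
theorem central_normalizing_eq_one {Q : Type*} [Group Q] [Finite Q] {p : ℕ} [Fact p.Prime] (hp : 5 ≤ p)
    (T : Sylow p Q) {z : Q} (hzT : z ∈ T)
    (hz : ∀ n ∈ normalizer ((T : Subgroup Q) : Set Q), z * n = n * z)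
    (N : Subgroup Q) [N.Normal] (hquot : IsPGroup p (Q ⧸ N)) (hN : IsRankOne p N)
    (hcore : Cfsg.pCore p Q = ⊥) : z = 1 := by
  classical
  set T0 : Subgroup Q := (T : Subgroup Q) with hT0
  set U := T0.subgroupOf N with hUdef
  have hUp : IsPGroup p U := T.isPGroup'.comap_of_injective _ N.subtype_injective
  have hUi : ¬ p ∣ U.index := by
    have hinj : Function.Injective N.subtype := N.subtype_injective
    intro hd
    refine T.not_dvd_index ?_
    have h1 : U.index = T0.relIndex N := rfl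
    have h2 : T0.relIndex N = T0.relIndex (T0 ⊔ N) := by
      have e1 : T0.relIndex (T0 ⊔ N) * Nat.card T0 = Nat.card ↥(T0 ⊔ N) := by
        rw [mul_comm, ← relIndex_bot_left T0, relIndex_mul_relIndex _ _ _ bot_le le_sup_left, relIndex_bot_left]
      have e2 : T0.relIndex N * Nat.card ↥(T0 ⊓ N) = Nat.card N := by
        rw [mul_comm, ← inf_relIndex_right T0 N, ← relIndex_bot_left (T0 ⊓ N),
          relIndex_mul_relIndex _ _ _ bot_le inf_le_right, relIndex_bot_left]
      have e3 : N.relIndex T0 * Nat.card ↥(T0 ⊓ N) = Nat.card T0 := by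
        rw [mul_comm, ← inf_relIndex_left T0 N, ← relIndex_bot_left (T0 ⊓ N),
          relIndex_mul_relIndex _ _ _ bot_le inf_le_left, relIndex_bot_left]
      have e4 : N.relIndex T0 * Nat.card N = Nat.card ↥(T0 ⊔ N) := by
        rw [← relIndex_sup_right (H := T0) (K := N), mul_comm, ← relIndex_bot_left N,
          relIndex_mul_relIndex _ _ _ bot_le le_sup_right, relIndex_bot_left]
      have hpos : 0 < Nat.card T0 := Nat.card_pos
      refine Nat.eq_of_mul_eq_mul_right hpos ?_
      rw [e1, ← e4, ← e2]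
      conv_lhs => rw [← e3]
      ring
    rw [h1, h2] at hd
    exact hd.trans (Subgroup.relIndex_dvd_index_of_le le_sup_left)
  obtain ⟨h, w, d⟩ := hN.exists_on hUp hUi
  set U' : Subgroup Q := T0 ⊓ N with hU'def
  have hUmap : U.map N.subtype = U' := subgroupOf_map_subtype T0 N
  have memU : ∀ {a : N}, a ∈ U ↔ (a : Q) ∈ U' :=
    fun {a} => ⟨fun ha => ⟨ha, a.2⟩, fun ha => ha.1⟩
  have hnorm : ∀ {a : N}, a ∈ normalizer (U : Set N) ↔ (a : Q) ∈ normalizer (U' : Set Q) := by
    intro a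
    simp only [mem_normalizer_iff]
    constructor
    · intro ha x
      constructor
      · intro hx; exact memU.mp ((ha ⟨x, hx.2⟩).mp (memU.mpr hx))
      · intro hx
        have hxN : x ∈ N := by
          have := (inferInstance : N.Normal).conj_mem _ hx.2 (a : Q)⁻¹
          simpa [mul_assoc] using this
        exact memU.mp ((ha ⟨x, hxN⟩).mpr (memU.mpr hx))
    · intro ha x
      rw [memU, memU]; exact ha x
  have hTN : T0 ≤ normalizer (U' : Set Q) := by
    intro t ht
    rw [mem_normalizer_iff]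
    intro x
    refine and_congr (mem_normalizer_iff.mp (le_normalizer ht) x) ⟨fun hx => (inferInstance : N.Normal).conj_mem x hx t, fun hx => ?_⟩
    have := (inferInstance : N.Normal).conj_mem _ hx t⁻¹
    simpa [mul_assoc] using this
  -- `T` centralizes small elements of `N_N(U)` modulo `U`
  have small : ∀ y : N, y ∈ normalizer (U : Set N) → ∀ n, 0 < n → (∀ m, m ∣ n → m.totient < p) → y ^ n ∈ U →
      ∀ t ∈ T0, (y : Q)⁻¹ * t * y * t⁻¹ ∈ U' := by
    intro y hy n hn hnp hyn t ht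
    let M := normalizer (U' : Set Q)
    let V := U'.subgroupOf M
    haveI : V.Normal := normal_subgroupOf_iff_le_normalizer le_normalizer |>.mpr le_rfl
    obtain ⟨g, hg, hgy⟩ := d.cyc
    let gM : M := ⟨g, hnorm.mp hg⟩
    let yM : M := ⟨y, hnorm.mp hy⟩
    let tM : M := ⟨t, hTN ht⟩
    have hz' : ∀ (b : N) (hb : b ∈ normalizer (U : Set N)),
        (QuotientGroup.mk (⟨b, hnorm.mp hb⟩ : M) : M ⧸ V) ∈ zpowers (QuotientGroup.mk gM : M ⧸ V) := by
      intro b hb
      obtain ⟨k, hk⟩ := hgy b hb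
      refine ⟨(k : ℤ), ?_⟩
      show (QuotientGroup.mk gM : M ⧸ V) ^ (k : ℤ) = _
      rw [zpow_natCast, ← QuotientGroup.mk_pow, QuotientGroup.eq, mem_subgroupOf]
      exact memU.mp hk
    have hgt : (QuotientGroup.mk tM : M ⧸ V) * QuotientGroup.mk gM * (QuotientGroup.mk tM)⁻¹ ∈
        zpowers (QuotientGroup.mk gM : M ⧸ V) := by
      have hb : t * g * t⁻¹ ∈ N := (inferInstance : N.Normal).conj_mem _ g.2 t
      have hbn : (⟨_, hb⟩ : N) ∈ normalizer (U : Set N) :=
        hnorm.mpr (M.mul_mem (M.mul_mem tM.2 gM.2) (M.inv_mem tM.2))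
      exact hz' ⟨_, hb⟩ hbn
    obtain ⟨a, ha⟩ := T.isPGroup' ⟨t, ht⟩
    have hta : (QuotientGroup.mk tM : M ⧸ V) ^ p ^ a = 1 := by
      rw [← QuotientGroup.mk_pow, QuotientGroup.eq_one_iff, mem_subgroupOf]
      have : t ^ p ^ a = 1 := congrArg Subtype.val ha
      simp [tM, this]
    have hyn' : (QuotientGroup.mk yM : M ⧸ V) ^ n = 1 := by
      rw [← QuotientGroup.mk_pow, QuotientGroup.eq_one_iff, mem_subgroupOf]
      exact memU.mp hyn
    have key := conj_eq_self_of_small hta hgt (hz' y hy) hyn' hn hnp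
    rw [← QuotientGroup.mk_inv, ← QuotientGroup.mk_mul, ← QuotientGroup.mk_mul, eq_comm, QuotientGroup.eq,
      mem_subgroupOf] at key
    simpa [yM, tM, mul_assoc] using key
  -- `z` commutes with `U` and `h`
  have hzU : ∀ u ∈ U', z * u = u * z := fun u hu => hz u (le_normalizer hu.1)
  have hhT : (h : Q) ∈ normalizer (T0 : Set Q) := by
    have key : ∀ t ∈ T0, (h : Q)⁻¹ * t * h ∈ T0 := by
      intro t ht
      have h1 := small h d.h_norm (p - 1) (by omega)
        (fun m hm => ((Nat.totient_le m).trans (Nat.le_of_dvd (by omega) hm)).trans_lt (by omega)) d.h_pow t ht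
      have := T0.mul_mem h1.1 ht
      simpa [mul_assoc] using this
    have key' : (T0.map (MulAut.conj (h : Q)⁻¹).toMonoidHom) = T0 := by
      refine Subgroup.eq_of_le_of_card_ge ?_ (le_of_eq (card_map_of_injective (f := (MulAut.conj (h : Q)⁻¹).toMonoidHom) (MulAut.conj _).injective).symm)
      rintro _ ⟨t, ht, rfl⟩
      simpa [mul_assoc] using key t ht
    rw [mem_normalizer_iff'']
    intro x
    constructor
    · exact key x
    · intro hx
      rw [← key'] at hx
      obtain ⟨t, ht, hte⟩ := hx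
      have : t = x := (MulAut.conj (h : Q)⁻¹).injective (hte.trans (by simp [mul_assoc]))
      exact this ▸ ht
  have hzh : z * h = h * z := hz h hhT
  -- the conjugates of `U'`
  let cj : Q → Subgroup Q := fun x => U'.map (MulAut.conj x).toMonoidHom
  have cj_mul : ∀ a b, cj (a * b) = (cj b).map (MulAut.conj a).toMonoidHom := by
    intro a b; simp only [cj, map_map]; congr 1; ext x; simp [mul_assoc]
  have cjN : ∀ x : N, cj (x : Q) = (U.map (MulAut.conj x).toMonoidHom).map N.subtype := by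
    intro x
    rw [map_conj_map, hUmap]; rfl
  have cjU : ∀ m ∈ normalizer (U' : Set Q), cj m = U' := by
    intro m hm
    ext x
    simp only [cj, mem_map_equiv, MulAut.conj_symm_apply]
    exact ((mem_normalizer_iff''.mp hm) x).symm
  have cj_zero : ∀ x, cj x = U' → x ∈ normalizer (U' : Set Q) := by
    intro x hx
    rw [mem_normalizer_iff'']
    intro y
    conv_lhs => rw [← hx]
    simp only [cj, mem_map_equiv, MulAut.conj_symm_apply]
  have hwN : cj (w : Q) ≠ U' := fun e => d.w_not (hnorm.mpr (cj_zero _ e))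
  have trans' : ∀ x : Q, cj x ≠ U' → ∃ u ∈ U', cj x = cj (u * w) := by
    intro x hx
    -- Frattini: `x = n * m` with `n ∈ N`, `m` normalizing `U'`
    have hxm : x ∈ normalizer (U' : Set Q) ⊔ N := by
      have h1 := Sylow.normalizer_sup_eq_top (hUp.toSylow hUi)
      rw [show ((hUp.toSylow hUi : Sylow p N) : Subgroup N) = U from rfl, hUmap] at h1
      exact h1 ▸ mem_top x
    obtain ⟨n, hn, m, hm, rfl⟩ := Subgroup.mem_sup_of_normal_left.mp (sup_comm (normalizer (U' : Set Q)) N ▸ hxm)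
    have e : cj (n * m) = cj n := by rw [cj_mul, cjU m hm]
    rw [e] at hx ⊢
    have hn' : (⟨n, hn⟩ : N) ∉ normalizer (U : Set N) := fun h' => hx (cjU n (hnorm.mp h'))
    obtain ⟨u, hu, hue⟩ := d.trans _ hn'
    refine ⟨u, memU.mp hu, ?_⟩
    have := congrArg (Subgroup.map N.subtype) hue
    rw [← cjN, ← cjN] at this
    simpa using this
  have free' : ∀ u ∈ U', cj (u * w) = cj (w : Q) → u = 1 := by
    intro u hu he
    have hun : (⟨u, hu.2⟩ : N) ∈ normalizer ((U.map (MulAut.conj w).toMonoidHom : Subgroup N) : Set N) := by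
      rw [mem_normalizer_iff'']
      intro y
      have key : (y : Q) ∈ cj (w : Q) ↔ u⁻¹ * y * u ∈ cj (w : Q) := by
        conv_lhs => rw [← he, cj_mul]
        simp only [mem_map_equiv, MulAut.conj_symm_apply]
      rw [cjN] at key
      rw [← mem_map_iff_mem N.subtype_injective (x := y), ← mem_map_iff_mem N.subtype_injective]
      simpa using key
    exact congrArg Subtype.val (d.free ⟨u, hu.2⟩ (memU.mpr ⟨hu.1, hu.2⟩) hun)
  have free'' : ∀ u ∈ U', ∀ v ∈ U', cj (u * w) = cj (v * w) → u = v := by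
    intro u hu v hv he
    have h1 : cj (v⁻¹ * u * w) = cj (w : Q) := by
      rw [mul_assoc, cj_mul, he, cj_mul, map_map]
      ext x; simp [mem_map, mul_assoc]
    have := free' _ (U'.mul_mem (U'.inv_mem hv) hu) h1
    exact (inv_mul_eq_one.mp this).symm
  have hhN : (h : Q) ∈ normalizer (U' : Set Q) := hnorm.mp d.h_norm
  have hconjU : ∀ u ∈ U', (h : Q) * u * (h : Q)⁻¹ ∈ U' := fun u hu => (mem_normalizer_iff.mp hhN u).mp hu
  have fpf : ∀ u ∈ U', (h : Q) * u = u * h → u = 1 := fun u hu he =>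
    congrArg Subtype.val (d.h_fpf ⟨u, hu.2⟩ (memU.mpr ⟨hu.1, hu.2⟩) (Subtype.ext he))
  have fix_eq : ∀ u ∈ U', ∀ v ∈ U', cj ((h : Q) * (u * w)) = cj (u * w) → cj ((h : Q) * (v * w)) = cj (v * w) → u = v := by
    intro u hu v hv heu hev
    -- conjugating by `h` shifts `u ↦ (h u h⁻¹) a`
    obtain ⟨a, ha, hae⟩ := trans' ((h : Q) * w) (fun e => hwN (by
      have := congrArg (Subgroup.map (MulAut.conj (h : Q)⁻¹).toMonoidHom) e
      rw [← cj_mul, inv_mul_cancel_left] at this
      rw [this]; exact cjU _ (inv_mem hhN)))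
    have shift : ∀ x ∈ U', cj ((h : Q) * (x * w)) = cj ((h : Q) * x * (h : Q)⁻¹ * a * w) := by
      intro x _
      rw [show (h : Q) * (x * w) = ((h : Q) * x * (h : Q)⁻¹) * (h * w) by group, cj_mul, hae, ← cj_mul, mul_assoc _ a]
    rw [shift u hu] at heu
    rw [shift v hv] at hev
    have h1 := free'' _ (U'.mul_mem (hconjU u hu) ha) _ hu heu
    have h2 := free'' _ (U'.mul_mem (hconjU v hv) ha) _ hv hev
    have h3 : (h : Q) * (u * v⁻¹) = (u * v⁻¹) * h := by
      have e1 : u * v⁻¹ = (h : Q) * u * (h : Q)⁻¹ * ((h : Q) * v * (h : Q)⁻¹)⁻¹ := by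
        nth_rewrite 1 [← h1]; nth_rewrite 1 [← h2]; group
      calc (h : Q) * (u * v⁻¹) = ((h : Q) * u * (h : Q)⁻¹ * ((h : Q) * v * (h : Q)⁻¹)⁻¹) * h := by group
        _ = _ := by rw [← e1]
    exact mul_inv_eq_one.mp (fpf _ (U'.mul_mem hu (U'.inv_mem hv)) h3)
  -- a fixed point of `h`
  obtain ⟨u₀, hu₀, hfix₀⟩ : ∃ u ∈ U', cj ((h : Q) * (u * w)) = cj (u * w) := by
    obtain ⟨a, ha, hae⟩ := trans' ((h : Q) * w) (fun e => hwN (by
      have := congrArg (Subgroup.map (MulAut.conj (h : Q)⁻¹).toMonoidHom) e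
      rw [← cj_mul, inv_mul_cancel_left] at this
      rw [this]; exact cjU _ (inv_mem hhN)))
    let φ : U' → U' := fun x => ⟨((h : Q) * x * (h : Q)⁻¹)⁻¹ * x, U'.mul_mem (U'.inv_mem (hconjU x x.2)) x.2⟩
    have hφ : Function.Injective φ := by
      intro x y hxy
      have hxy' : ((h : Q) * x * (h : Q)⁻¹)⁻¹ * x = ((h : Q) * y * (h : Q)⁻¹)⁻¹ * y := congrArg Subtype.val hxy
      have h3 : (h : Q) * ((x : Q) * (y : Q)⁻¹) = ((x : Q) * (y : Q)⁻¹) * h := by
        calc (h : Q) * ((x : Q) * (y : Q)⁻¹)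
            = (((h : Q) * x * (h : Q)⁻¹) * (((h : Q) * y * (h : Q)⁻¹)⁻¹ * y) * (y : Q)⁻¹) * h := by group
          _ = _ := by rw [← hxy']; group
      exact Subtype.ext (mul_inv_eq_one.mp (fpf _ (U'.mul_mem x.2 (U'.inv_mem y.2)) h3))
    obtain ⟨x, hx⟩ := (Finite.injective_iff_surjective.mp hφ) ⟨a, ha⟩
    have hx' : ((h : Q) * x * (h : Q)⁻¹)⁻¹ * x = a := congrArg Subtype.val hx
    refine ⟨x, x.2, ?_⟩
    rw [show (h : Q) * ((x : Q) * w) = ((h : Q) * x * (h : Q)⁻¹) * (h * w) by group, cj_mul, hae, ← cj_mul,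
      ← mul_assoc, ← hx', mul_inv_cancel_left]
  -- hence `z` fixes every conjugate
  have hzw : ∀ u ∈ U', cj (z * (u * w)) = cj (u * w) := by
    have hzN : z ∈ normalizer (U' : Set Q) := hTN hzT
    obtain ⟨v, hv, hve⟩ := trans' (z * (u₀ * w)) (fun e => hwN (by
      have := congrArg (Subgroup.map (MulAut.conj ((z * u₀)⁻¹)).toMonoidHom) e
      rw [← cj_mul] at this
      rw [show ((z * u₀)⁻¹ * (z * (u₀ * w)) : Q) = w by group] at this
      rw [this]
      exact cjU _ (inv_mem (mul_mem hzN (le_normalizer hu₀)))))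
    have hvfix : cj ((h : Q) * (v * w)) = cj (v * w) := by
      rw [cj_mul (h : Q), ← hve, ← cj_mul, ← mul_assoc (h : Q) z, ← hzh, mul_assoc z, cj_mul z, hfix₀, ← cj_mul]
    have hvu : v = u₀ := fix_eq v hv u₀ hu₀ hvfix hfix₀
    subst hvu
    intro u hu
    have hvv : u * v⁻¹ ∈ U' := U'.mul_mem hu (U'.inv_mem hv)
    rw [show z * (u * w) = (u * v⁻¹) * (z * (v * w)) by
        rw [← mul_assoc, ← mul_assoc, ← mul_assoc, ← hzU _ hvv]; group,
      cj_mul, hve, ← cj_mul, show u * v⁻¹ * (v * w) = u * w by group]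
  -- the kernel of the action
  set M := (normalizer (U' : Set Q)).normalCore with hM
  have hzM : z ∈ M := by
    intro q
    refine cj_zero _ ?_
    by_cases hq : cj q⁻¹ = U'
    · have hq' := cj_zero _ hq
      refine cjU _ (mul_mem (mul_mem (by simpa using inv_mem hq') (hTN hzT)) hq')
    · obtain ⟨u, hu, hue⟩ := trans' _ hq
      have e : cj (z * q⁻¹) = cj q⁻¹ := by rw [cj_mul, hue, ← cj_mul, hzw u hu]
      rw [mul_assoc, cj_mul, e, ← cj_mul, mul_inv_cancel]
      exact cjU 1 (one_mem _)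
  have hK6 : ∀ k ∈ M, k ∈ N → k ^ 6 = 1 := by
    intro k hk hkN
    refine congrArg Subtype.val (d.kernel ⟨k, hkN⟩ fun x => ?_)
    have h1 : (x : Q)⁻¹ * k * x ∈ normalizer (U' : Set Q) := by
      have := hk (x : Q)⁻¹
      simpa using this
    rw [mem_normalizer_iff'']
    intro y
    rw [← mem_map_iff_mem N.subtype_injective (x := y), ← mem_map_iff_mem N.subtype_injective, ← cjN]
    simp only [cj, mem_map_equiv, MulAut.conj_symm_apply, coe_subtype, coe_mul, coe_inv]
    rw [mem_normalizer_iff''.mp h1]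
    simp [mul_assoc]
  have hTK : ∀ k ∈ M, k ∈ N → ∀ t ∈ T0, t * k = k * t := by
    intro k hk hkN t ht
    have hkn : (⟨k, hkN⟩ : N) ∈ normalizer (U : Set N) := hnorm.mpr (normalCore_le _ hk)
    have h1 := small ⟨k, hkN⟩ hkn 6 (by norm_num) (fun m hm => by
      have h6 : m ∈ Nat.divisors 6 := Nat.mem_divisors.mpr ⟨hm, by norm_num⟩
      have h62 : ∀ m ∈ Nat.divisors 6, m.totient ≤ 2 := by decide
      exact lt_of_le_of_lt (h62 m h6) (by omega)) (by
      rw [show (⟨k, hkN⟩ : N) ^ 6 = 1 from Subtype.ext (hK6 k hk hkN)]; exact U.one_mem) t ht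
    have hmem : k⁻¹ * t * k * t⁻¹ ∈ M := by
      have h3 : k⁻¹ * (t * k * t⁻¹) ∈ M := M.mul_mem (M.inv_mem hk) ((inferInstance : M.Normal).conj_mem k hk t)
      simpa [mul_assoc] using h3
    have h4 := eq_one_of_pow_six hp T.isPGroup' h1.1 (hK6 _ hmem h1.2)
    have h5 : k⁻¹ * t * k = t := mul_inv_eq_one.mp h4
    calc t * k = k * (k⁻¹ * t * k) := by group
      _ = k * t := by rw [h5]
  set C := M ⊓ centralizer ((M ⊓ N : Subgroup Q) : Set Q) with hC
  have hzC : z ∈ C := ⟨hzM, fun k hk => (hTK k hk.1 hk.2 z hzT).symm⟩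
  haveI hCn : C.Normal := inferInstance
  haveI : Group.IsNilpotent (Q ⧸ N) := hquot.isNilpotent
  haveI hCnil : Group.IsNilpotent C := by
    refine Subgroup.isNilpotent_of_ker_le_center ((QuotientGroup.mk' N).comp C.subtype) ?_
    intro c hc
    rw [MonoidHom.mem_ker] at hc
    have hcN : (c : Q) ∈ N := (QuotientGroup.eq_one_iff _).mp hc
    rw [Subgroup.mem_center_iff]
    intro g
    exact Subtype.ext (g.2.2 c ⟨c.2.1, hcN⟩).symm
  obtain ⟨R, hR⟩ := (T.isPGroup'.comap_of_injective C.subtype C.subtype_injective :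
    IsPGroup p (T0.subgroupOf C)).exists_le_sylow
  haveI : (R : Subgroup C).Normal :=
    Sylow.normal_of_normalizerCondition Group.normalizerCondition_of_isNilpotent R
  haveI : (R : Subgroup C).Characteristic := R.characteristic_of_normal ‹_›
  have : ((R : Subgroup C).map C.subtype) ≤ Cfsg.pCore p Q :=
    le_sSup ⟨inferInstance, R.isPGroup'.map C.subtype⟩
  have := this ⟨⟨z, hzC⟩, hR hzT, rfl⟩
  rwa [hcore, mem_bot] at this

end CfsgLib.RankOneSylow
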