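import Cfsg.Agent.RankOneSylow.Basic
import Cfsg.Agent.SL2.Basic

/-! `SL₂` and the central quotient of a rank one group satisfy `RankOneSylow.Data`. -/

set_option autoImplicit false

namespace CfsgLib.RankOneSylow

open Subgroup

variable {X : Type*} [Group X]

theorem mem_normalizer_conj_iff (U : Subgroup X) (x k : X) :
    k ∈ normalizer ((U.map (MulAut.conj x).toMonoidHom : Subgroup X) : Set X) ↔
      x⁻¹ * k * x ∈ normalizer (U : Set X) := by
  rw [← mem_normalizer_map_iff (MulAut.conj x) U]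
  simp [mul_assoc]

theorem map_conj_eq_of_mem (U : Subgroup X) (x y : X) (h : y⁻¹ * x ∈ normalizer (U : Set X)) :
    U.map (MulAut.conj x).toMonoidHom = U.map (MulAut.conj y).toMonoidHom := by
  ext a
  simp only [mem_map_equiv, MulAut.conj_symm_apply]
  rw [mem_normalizer_iff.mp h (x⁻¹ * a * x)]
  simp [mul_assoc]

theorem eq_of_map_eq {p : ℕ} [Fact p.Prime] (hp : 5 ≤ p) {Z : Subgroup X} [Z.Normal]
    (hZc : Z ≤ center X) (hZ6 : ∀ z ∈ Z, z ^ 6 = 1) {U V : Subgroup X}
    (hU : IsPGroup p U) (hV : IsPGroup p V)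
    (h : U.map (QuotientGroup.mk' Z) = V.map (QuotientGroup.mk' Z)) : U = V := by
  have key : ∀ {U V : Subgroup X}, IsPGroup p U → IsPGroup p V →
      U.map (QuotientGroup.mk' Z) ≤ V.map (QuotientGroup.mk' Z) → U ≤ V := by
    intro U V hU hV h u hu
    obtain ⟨v, hv, hvu⟩ := h ⟨u, hu, rfl⟩
    have hz : v⁻¹ * u ∈ Z := QuotientGroup.eq.mp hvu
    obtain ⟨i, hi⟩ := hU ⟨u, hu⟩
    obtain ⟨j, hj⟩ := hV ⟨v, hv⟩
    have hi' : u ^ p ^ i = 1 := congrArg Subtype.val hi
    have hj' : v ^ p ^ j = 1 := congrArg Subtype.val hj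
    have hcomm : Commute v (v⁻¹ * u) := (Subgroup.mem_center_iff.mp (hZc hz) v)
    have hcu : Commute v⁻¹ u := by
      have := hcomm.inv_left
      have e : v⁻¹ * (v⁻¹ * u) = v⁻¹ * u * v⁻¹ := this
      rw [mul_assoc v⁻¹ u] at e
      exact mul_left_cancel e
    have hzp : (v⁻¹ * u) ^ (p ^ (i + j)) = 1 := by
      rw [hcu.mul_pow, pow_add, pow_mul u, hi', one_pow, mul_one, inv_pow, mul_comm, pow_mul, hj', one_pow, inv_one]
    have hS : IsPGroup p (zpowers (v⁻¹ * u)) := by
      rintro ⟨x, k, rfl⟩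
      refine ⟨i + j, Subtype.ext ?_⟩
      show ((v⁻¹ * u) ^ k) ^ p ^ (i + j) = 1
      rw [← zpow_natCast, ← zpow_mul, mul_comm, zpow_mul, zpow_natCast, hzp, one_zpow]
    have := eq_one_of_pow_six hp hS (mem_zpowers _) (hZ6 _ hz)
    rw [inv_mul_eq_one] at this
    exact this ▸ hv
  exact le_antisymm (key hU hV h.le) (key hV hU h.ge)

/-- The central quotient. -/
theorem IsRankOne.quotient_center [Finite X] {p : ℕ} [Fact p.Prime] (hp : 5 ≤ p) (hX : IsRankOne p X) :
    IsRankOne p (X ⧸ center X) := by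
  obtain ⟨U, h, w, d⟩ := hX
  set π := QuotientGroup.mk' (center X) with hπ
  have hsurj : Function.Surjective π := QuotientGroup.mk'_surjective _
  have hZ6 : ∀ z ∈ center X, z ^ 6 = 1 := fun z hz => d.kernel z fun x => by
    rw [mem_normalizer_conj_iff]
    have : x⁻¹ * z * x = z := by
      rw [mul_assoc, ← Subgroup.mem_center_iff.mp hz x, ← mul_assoc, inv_mul_cancel, one_mul]
    rw [this, mem_normalizer_iff]
    intro y
    rw [← Subgroup.mem_center_iff.mp hz y, mul_inv_cancel_right]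
  have hconj : ∀ x, IsPGroup p ↥(U.map (MulAut.conj x).toMonoidHom) := fun x => d.pgroup.map _
  have hconjmap : ∀ x, (U.map (MulAut.conj x).toMonoidHom).map π = (U.map π).map (MulAut.conj (π x)).toMonoidHom :=
    fun x => map_conj_map π U x
  have hN : ∀ x, π x ∈ normalizer ((U.map π : Subgroup (X ⧸ center X)) : Set (X ⧸ center X)) ↔
      x ∈ normalizer (U : Set X) := by
    intro x
    constructor
    · intro hx
      have e : U.map (MulAut.conj x).toMonoidHom = U := by
        refine eq_of_map_eq hp le_rfl hZ6 (hconj x) d.pgroup ?_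
        rw [hconjmap]
        ext a
        simp only [mem_map_equiv, MulAut.conj_symm_apply]
        exact ((mem_normalizer_iff''.mp hx) a).symm
      rw [mem_normalizer_iff'']
      intro a
      conv_lhs => rw [← e]
      simp only [mem_map_equiv, MulAut.conj_symm_apply]
    · exact fun hx => le_normalizer_map (H := U) π ⟨x, hx, rfl⟩
  refine ⟨U.map π, π h, π w, d.pgroup.map π, ?_, (hN h).mpr d.h_norm, ?_, ?_, ?_, ?_, ?_, ?_, ?_⟩
  · exact fun hd => d.sylow (hd.trans (index_map_dvd U hsurj))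
  · rintro _ ⟨u, hu, rfl⟩ hc
    rw [← map_mul, ← map_mul] at hc
    have hu' : h * u * h⁻¹ ∈ U := (mem_normalizer_iff.mp d.h_norm u).mp hu
    have hmap : (zpowers (h * u * h⁻¹)).map π = (zpowers u).map π := by
      rw [MonoidHom.map_zpowers, MonoidHom.map_zpowers]
      congr 1
      rw [map_mul, hc, ← map_mul, mul_inv_cancel_right]
    have hle : ∀ y ∈ U, IsPGroup p (zpowers y) := fun y hy => d.pgroup.to_le (zpowers_le.mpr hy)
    obtain ⟨i, hi⟩ := d.pgroup ⟨u, hu⟩
    have hz : u⁻¹ * (h * u * h⁻¹) ∈ center X := by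
      rw [← QuotientGroup.eq_one_iff]
      show π (u⁻¹ * (h * u * h⁻¹)) = 1
      rw [map_mul, map_mul π (h * u), hc, ← map_mul, ← map_mul, mul_inv_cancel_right, inv_mul_cancel, map_one]
    have h1 := eq_one_of_pow_six hp d.pgroup (U.mul_mem (U.inv_mem hu) hu') (hZ6 _ hz)
    rw [inv_mul_eq_one] at h1
    rw [d.h_fpf u hu (by
      conv_rhs => rw [h1]
      group), map_one]
  · rw [← map_pow]; exact ⟨_, d.h_pow, rfl⟩
  · obtain ⟨g, hg, hgy⟩ := d.cyc
    refine ⟨π g, (hN g).mpr hg, fun y hy => ?_⟩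
    obtain ⟨y, rfl⟩ := hsurj y
    obtain ⟨k, hk⟩ := hgy y ((hN y).mp hy)
    exact ⟨k, ⟨_, hk, by simp⟩⟩
  · exact fun hw => d.w_not ((hN w).mp hw)
  · intro x hx
    obtain ⟨x, rfl⟩ := hsurj x
    obtain ⟨u, hu, hux⟩ := d.trans x (fun hx' => hx ((hN x).mpr hx'))
    refine ⟨π u, ⟨u, hu, rfl⟩, ?_⟩
    have := congrArg (Subgroup.map π) hux
    rwa [hconjmap, hconjmap, map_mul] at this
  · rintro _ ⟨u, hu, rfl⟩ hn
    have h1 : w⁻¹ * u * w ∈ normalizer (U : Set X) := by
      rw [← hN, map_mul, map_mul, map_inv, ← mem_normalizer_conj_iff]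
      exact hn
    rw [d.free u hu ((mem_normalizer_conj_iff U w u).mpr h1), map_one]
  · intro k hk
    obtain ⟨k, rfl⟩ := hsurj k
    rw [← map_pow, d.kernel k (fun x => ?_), map_one]
    rw [mem_normalizer_conj_iff, ← hN, map_mul, map_mul, map_inv, ← mem_normalizer_conj_iff]
    exact hk (π x)

theorem two_ne_zero_of {F : Type*} [Field F] {p : ℕ} [CharP F p] (hp : 5 ≤ p) :
    (2 : F) ≠ 0 ∧ (3 : F) ≠ 0 := by
  constructor <;> intro h
  · have : ((2 : ℕ) : F) = 0 := by exact_mod_cast h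
    rw [CharP.cast_eq_zero_iff F p] at this
    have := Nat.le_of_dvd (by norm_num) this; omega
  · have : ((3 : ℕ) : F) = 0 := by exact_mod_cast h
    rw [CharP.cast_eq_zero_iff F p] at this
    have := Nat.le_of_dvd (by norm_num) this; omega

theorem two_pow_sub_one {F : Type*} [Field F] {p : ℕ} [Fact p.Prime] [CharP F p] (hp : 5 ≤ p) :
    (2 : F) ^ (p - 1) = 1 := by
  have h2 : ((2 : ℕ) : ZMod p) ≠ 0 := by
    intro h; rw [ZMod.natCast_eq_zero_iff] at h
    have := Nat.le_of_dvd (by norm_num) h; omega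
  have := congrArg (ZMod.castHom (dvd_refl p) F) (ZMod.pow_card_sub_one_eq_one h2)
  rw [map_pow, map_one, map_natCast] at this
  exact_mod_cast this

open CfsgLib.SL2 in
theorem isRankOne_SL2 (F : Type*) [Field F] [Fintype F] {p a : ℕ} [Fact p.Prime] [CharP F p]
    (hp : 5 ≤ p) (ha : 1 ≤ a) (hF : Fintype.card F = p ^ a) :
    IsRankOne p (Matrix.SpecialLinearGroup (Fin 2) F) := by
  obtain ⟨h2, h3⟩ := two_ne_zero_of (F := F) hp
  set h2u : Fˣ := Units.mk0 2 h2
  have hNU := normalizer_U (F := F)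
  have hcardU : Nat.card (U : Subgroup (Matrix.SpecialLinearGroup (Fin 2) F)) = p ^ a := by
    rw [U_nat_card, Nat.card_eq_fintype_card, hF]
  have hUp : IsPGroup p (U : Subgroup (Matrix.SpecialLinearGroup (Fin 2) F)) := IsPGroup.of_card hcardU
  refine ⟨U, d h2u, w, hUp, ?_, ?_, ?_, ?_, ?_, ?_, ?_, ?_, ?_⟩
  · intro hd
    have h := (U : Subgroup (Matrix.SpecialLinearGroup (Fin 2) F)).card_mul_index
    rw [hcardU, card_SL, hF] at h
    have hi := Nat.eq_of_mul_eq_mul_left (pow_pos (Fact.out : p.Prime).pos a) h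
    rw [hi] at hd
    have h1 : p ∣ (p ^ a) ^ 2 := by rw [← pow_mul]; exact dvd_pow_self p (by omega)
    have hq : 1 ≤ (p ^ a) ^ 2 := Nat.one_le_pow _ _ (pow_pos (Fact.out : p.Prime).pos a)
    have := Nat.dvd_sub h1 hd
    rw [Nat.sub_sub_self hq] at this
    exact (Fact.out : p.Prime).one_lt.ne' (Nat.dvd_one.mp this)
  · rw [hNU]; exact T_le_B (d_mem_T _)
  · intro x hx hc
    obtain ⟨t, rfl⟩ := mem_U.mp hx
    have h1 : d h2u * u t * (d h2u)⁻¹ = u t := by rw [hc, mul_inv_cancel_right]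
    rw [d_conj_u] at h1
    have h4 := u_injective h1
    have h5 : (3 : F) * t = 0 := by
      simp only [h2u, Units.val_mk0] at h4
      linear_combination h4
    rcases mul_eq_zero.mp h5 with h | h
    · exact absurd h h3
    · rw [h]; exact map_one uHom
  · rw [← map_pow, show h2u ^ (p - 1) = 1 from Units.ext (by simpa [h2u] using two_pow_sub_one hp), map_one]
    exact one_mem _
  · obtain ⟨ζ, hζ⟩ := IsCyclic.exists_generator (α := Fˣ)
    refine ⟨d ζ, by rw [hNU]; exact T_le_B (d_mem_T _), fun y hy => ?_⟩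
    rw [hNU] at hy
    obtain ⟨t, b, rfl⟩ := eq_u_mul_d hy
    obtain ⟨k, rfl⟩ := (mem_powers_iff_mem_zpowers.mpr (hζ b) : b ∈ Submonoid.powers ζ)
    refine ⟨k, ?_⟩
    change (d ζ ^ k)⁻¹ * (u t * d (ζ ^ k)) ∈ _
    rw [← map_pow]
    have : d (ζ ^ k) ∈ normalizer ((U : Subgroup (Matrix.SpecialLinearGroup (Fin 2) F)) : Set _) := by
      rw [hNU]; exact T_le_B (d_mem_T _)
    rw [← mul_assoc]
    exact (mem_normalizer_iff''.mp this (u t)).mp (u_mem_U t)
  · rw [hNU]; simp [mem_B, w]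
  · intro x hx
    rw [hNU] at hx
    obtain ⟨s, t, b, rfl⟩ := bruhat hx
    refine ⟨u s, u_mem_U s, map_conj_eq_of_mem _ _ _ ?_⟩
    rw [hNU]
    have e : (u s * w)⁻¹ * (u s * d b * w * u t) = (w⁻¹ * d b * w) * u t := by group
    rw [e]
    refine mul_mem ?_ (U_le_B (u_mem_U t))
    simp [mem_B, w, d, inv_apply, Matrix.mul_apply, Fin.sum_univ_two]
  · intro x hx hn
    obtain ⟨t, rfl⟩ := mem_U.mp hx
    rw [mem_normalizer_conj_iff, hNU] at hn
    have : t = 0 := by
      simp [mem_B, w, u, uHom, inv_apply, Matrix.mul_apply, Fin.sum_univ_two] at hn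
      linear_combination hn
    rw [this]; exact map_one uHom
  · intro k hk
    have h1 := (mem_normalizer_conj_iff _ _ _).mp (hk 1)
    have h2' := (mem_normalizer_conj_iff _ _ _).mp (hk w)
    have h3' := (mem_normalizer_conj_iff _ _ _).mp (hk (u 1 * w))
    rw [hNU] at h1 h2' h3'
    have hdet := det_eq k
    simp [mem_B] at h1
    simp [mem_B, w, inv_apply, Matrix.mul_apply, Matrix.vecMul, dotProduct, Fin.sum_univ_two] at h2'
    simp [mem_B, w, u, uHom, inv_apply, Matrix.mul_apply, Matrix.vecMul, dotProduct, Fin.sum_univ_two, h1, h2'] at h3'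
    have h01 : k 0 0 = k 1 1 := by linear_combination -h3'
    have hkk : k * k = 1 := by
      rw [h1, mul_zero, sub_zero, ← h01] at hdet
      apply ext4 <;> simp [Matrix.mul_apply, Fin.sum_univ_two, h1, h2', ← h01, hdet]
    rw [show (6 : ℕ) = 2 * 3 from rfl, pow_mul, pow_two, hkk, one_pow]

end CfsgLib.RankOneSylow
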