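import Cfsg.Agent.RankOneSylow.Linear
import Cfsg.Agent.Eq.Def_Classical
import Cfsg.Agent.Classical.Unitary.Field

/-! `SU₃` satisfies `RankOneSylow.Data`. -/

set_option autoImplicit false

namespace CfsgLib.RankOneSylow

open Subgroup Matrix CfsgLib.Unitary

variable {F : Type*} [Field F]

/-- The hermitian form with antidiagonal Gram matrix. -/
def antiForm (q : ℕ) (u v : Fin 3 → F) : F := u 0 * v 2 ^ q + u 2 * v 0 ^ q + u 1 * v 1 ^ q

/-- The special unitary group of `antiForm`. -/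
abbrev antiSU (F : Type*) [Field F] (q : ℕ) : Subgroup (SpecialLinearGroup (Fin 3) F) :=
  Cfsg.preserving (Cfsg.slToMat 3 F) (antiForm q)

theorem antiForm_col {q : ℕ} {g : SpecialLinearGroup (Fin 3) F} (hg : g ∈ antiSU F q) (u v : Fin 3 → F) :
    antiForm q ((g : Matrix (Fin 3) (Fin 3) F) *ᵥ u) ((g : Matrix (Fin 3) (Fin 3) F) *ᵥ v) = antiForm q u v :=
  hg u v

theorem isRankOne_antiSU [Fintype F] {p a : ℕ} [Fact p.Prime] [CharP F p] (hp : 5 ≤ p) (ha : 1 ≤ a)
    (hF : Fintype.card F = p ^ (2 * a)) : IsRankOne p ↥(antiSU F (p ^ a)) := by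
  classical
  set q := p ^ a with hq
  have hFq : Fintype.card F = q ^ 2 := by rw [hF, hq, ← pow_mul, mul_comm]
  obtain ⟨h2, h3⟩ := two_ne_zero_of (F := F) hp
  have h0q : (0 : F) ^ q = 0 := zero_pow_q hFq
  have h2q : (2 : F) ^ q = 2 := by
    have := congrArg (ZMod.castHom (dvd_refl p) F) (ZMod.pow_card_pow (n := a) ((2 : ℕ) : ZMod p))
    rw [map_pow, map_natCast] at this
    exact_mod_cast this
  have haddq : ∀ x y : F, (x + y) ^ q = x ^ q + y ^ q := add_pow_q hFq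
  have hsol : ∀ x : F, x * x ^ q = 0 → x = 0 := fun x hx => by
    rcases mul_eq_zero.mp hx with h | h
    · exact h
    · exact eq_zero_of_pow_eq_zero h
  let e₀ : Fin 3 → F := ![1, 0, 0]
  let M : ↥(antiSU F q) → Matrix (Fin 3) (Fin 3) F := fun g => ((g : SpecialLinearGroup (Fin 3) F) : Matrix (Fin 3) (Fin 3) F)
  have hMmul : ∀ g g' : ↥(antiSU F q), M (g * g') = M g * M g' := fun g g' => rfl
  have hMone : M 1 = 1 := rfl
  have hMinj : ∀ g g' : ↥(antiSU F q), M g = M g' → g = g' := fun g g' h => Subtype.ext (Subtype.ext h)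
  have hMinv : ∀ g : ↥(antiSU F q), M g⁻¹ * M g = 1 := fun g => by rw [← hMmul, inv_mul_cancel, hMone]
  have hMinv' : ∀ g : ↥(antiSU F q), M g * M g⁻¹ = 1 := fun g => by rw [← hMmul, mul_inv_cancel, hMone]
  let U : Subgroup ↥(antiSU F q) :=
    { carrier := {g | M g *ᵥ e₀ = e₀}
      one_mem' := by show M 1 *ᵥ e₀ = e₀; rw [hMone, one_mulVec]
      mul_mem' := fun {g g'} hg hg' => by
        show M (g * g') *ᵥ e₀ = e₀
        rw [hMmul, ← mulVec_mulVec, hg', hg]
      inv_mem' := fun {g} hg => by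
        show M g⁻¹ *ᵥ e₀ = e₀
        calc M g⁻¹ *ᵥ e₀ = M g⁻¹ *ᵥ (M g *ᵥ e₀) := by rw [hg]
          _ = e₀ := by rw [mulVec_mulVec, hMinv, one_mulVec] }
  have he₀ : ∀ g : ↥(antiSU F q), M g *ᵥ e₀ = ![M g 0 0, M g 1 0, M g 2 0] := fun g => by
    ext i; fin_cases i <;> simp [e₀, mulVec, dotProduct, Fin.sum_univ_three]
  have memU : ∀ g : ↥(antiSU F q), g ∈ U ↔ M g 0 0 = 1 ∧ M g 1 0 = 0 ∧ M g 2 0 = 0 := fun g => by
    show M g *ᵥ e₀ = e₀ ↔ _
    rw [he₀]; simp [e₀, funext_iff, Fin.forall_fin_succ]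
  -- relations between the columns
  have rel : ∀ (g : ↥(antiSU F q)) (i j : Fin 3), antiForm q (fun k => M g k i) (fun k => M g k j) =
      antiForm q (Pi.single i 1) (Pi.single j 1) := fun g i j => by
    have := antiForm_col g.2 (Pi.single i 1) (Pi.single j 1)
    rw [Matrix.mulVec_single_one, Matrix.mulVec_single_one] at this
    exact this
  have Ushape : ∀ g ∈ U, M g 1 1 = 1 ∧ M g 2 1 = 0 ∧ M g 2 2 = 1 ∧
      M g 0 1 = -(M g 1 2) ^ q ∧ M g 0 2 + (M g 0 2) ^ q + M g 1 2 * (M g 1 2) ^ q = 0 := by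
    intro g hg
    obtain ⟨g00, g10, g20⟩ := (memU g).mp hg
    have r01 := rel g 1 0
    have r02 := rel g 2 0
    simp [antiForm, g00, g10, g20, h0q] at r01 r02
    have hdet : (M g).det = 1 := (g : SpecialLinearGroup (Fin 3) F).2
    rw [det_fin_three] at hdet
    simp [g00, g10, g20, r01, r02] at hdet
    have r12 := rel g 1 2
    have r22 := rel g 2 2
    simp [antiForm, r01, r02, h0q, hdet] at r12 r22
    refine ⟨hdet, r01, r02, by linear_combination r12, ?_⟩
    linear_combination r22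
  let B : Subgroup ↥(antiSU F q) :=
    { carrier := {g | M g 1 0 = 0 ∧ M g 2 0 = 0}
      one_mem' := by simp [hMone]
      mul_mem' := fun {g g'} hg hg' => by
        obtain ⟨hg1, hg2⟩ := hg
        obtain ⟨hg1', hg2'⟩ := hg'
        constructor <;> rw [hMmul] <;> simp [mul_apply, Fin.sum_univ_three, hg1, hg2, hg1', hg2']
      inv_mem' := fun {g} hg => by
        obtain ⟨hg1, hg2⟩ := hg
        have e : M g⁻¹ * M g = 1 := hMinv g
        have e00 := congrFun (congrFun e 0) 0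
        have e10 := congrFun (congrFun e 1) 0
        have e20 := congrFun (congrFun e 2) 0
        simp [mul_apply, Fin.sum_univ_three, hg1, hg2] at e00 e10 e20
        have hne : M g 0 0 ≠ 0 := fun h => by simp [h] at e00
        exact ⟨e10.resolve_right hne, e20.resolve_right hne⟩ }
  have memB : ∀ g : ↥(antiSU F q), g ∈ B ↔ M g 1 0 = 0 ∧ M g 2 0 = 0 := fun g => Iff.rfl
  have mk : ∀ (A : Matrix (Fin 3) (Fin 3) F) (hA : A.det = 1),
      (∀ u v : Fin 3 → F, antiForm q (A *ᵥ u) (A *ᵥ v) = antiForm q u v) → ∃ g : ↥(antiSU F q), M g = A :=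
    fun A hA hf => ⟨⟨⟨A, hA⟩, hf⟩, rfl⟩
  have mkU : ∀ b c : F, c + c ^ q + b * b ^ q = 0 → ∃ g : ↥(antiSU F q), M g = !![1, -b ^ q, c; 0, 1, b; 0, 0, 1] := by
    intro b c hbc
    refine mk _ (by simp [det_fin_three]) fun u v => ?_
    simp only [antiForm, mulVec, dotProduct, Fin.sum_univ_three]
    simp [haddq, mul_pow, neg_pow_q hFq, pow_q_q hFq]
    linear_combination (u 2 * v 2 ^ q) * hbc
  obtain ⟨w, hw⟩ := mk !![0, 0, 1; 0, -1, 0; 1, 0, 0] (by simp [det_fin_three]) fun u v => by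
    simp only [antiForm, mulVec, dotProduct, Fin.sum_univ_three]
    simp [neg_pow_q hFq]
    ring
  have hhalf : (2⁻¹ : F) ^ q = 2⁻¹ := by rw [inv_pow, h2q]
  obtain ⟨h, hh⟩ := mk !![2, 0, 0; 0, 1, 0; 0, 0, 2⁻¹] (by simp [det_fin_three, h2]) fun u v => by
    simp only [antiForm, mulVec, dotProduct, Fin.sum_univ_three]
    simp [mul_pow, h2q, hhalf]
    field_simp
  obtain ⟨u₁, hu₁⟩ := mkU 1 (-2⁻¹) (by
    rw [neg_pow_q hFq, hhalf, one_pow]
    field_simp; ring)
  have hu₁U : u₁ ∈ U := (memU u₁).mpr (by simp [hu₁])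
  have hNU : normalizer (U : Set ↥(antiSU F q)) = B := by
    apply le_antisymm
    · intro g hg
      have hfix : M u₁ *ᵥ (M g *ᵥ e₀) = M g *ᵥ e₀ := by
        have h1 : M (g⁻¹ * u₁ * g) *ᵥ e₀ = e₀ := (mem_normalizer_iff''.mp hg u₁).mp hu₁U
        calc M u₁ *ᵥ (M g *ᵥ e₀) = M g *ᵥ (M (g⁻¹ * u₁ * g) *ᵥ e₀) := by
              rw [mulVec_mulVec, mulVec_mulVec, ← hMmul, ← hMmul]; congr 2; group
          _ = _ := by rw [h1]
      rw [he₀, hu₁] at hfix
      have f0 := congrFun hfix 0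
      have f1 := congrFun hfix 1
      simp [mulVec, dotProduct, Fin.sum_univ_three] at f0 f1
      rw [memB]
      refine ⟨?_, f1⟩
      rw [f1] at f0
      simpa using f0
    · have hcl : ∀ g ∈ B, ∀ x ∈ U, g * x * g⁻¹ ∈ U := by
        intro g hg x hx
        have hv : M g⁻¹ *ᵥ e₀ = M g⁻¹ 0 0 • e₀ := by
          rw [he₀, (B.inv_mem hg).1, (B.inv_mem hg).2]
          simp [e₀]
        show M (g * x * g⁻¹) *ᵥ e₀ = e₀
        calc M (g * x * g⁻¹) *ᵥ e₀ = M g *ᵥ (M x *ᵥ (M g⁻¹ *ᵥ e₀)) := by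
              rw [hMmul, hMmul, mulVec_mulVec, mulVec_mulVec, Matrix.mul_assoc]
          _ = M g *ᵥ (M g⁻¹ *ᵥ e₀) := by rw [hv, mulVec_smul, show M x *ᵥ e₀ = e₀ from hx]
          _ = e₀ := by rw [mulVec_mulVec, hMinv', one_mulVec]
      intro g hg
      rw [mem_normalizer_iff]
      intro x
      refine ⟨hcl g hg x, fun hx => ?_⟩
      have := hcl g⁻¹ (B.inv_mem hg) _ hx
      have e : g⁻¹ * (g * x * g⁻¹) * g⁻¹⁻¹ = x := by group
      rwa [e] at this
  have hwinv : w⁻¹ = w := by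
    refine inv_eq_of_mul_eq_one_right (hMinj _ _ ?_)
    rw [hMmul, hw, hMone]
    ext i j; fin_cases i <;> fin_cases j <;> simp [mul_apply, Fin.sum_univ_three]
  have hUp : IsPGroup p U := by
    rintro ⟨g, hg⟩
    obtain ⟨g11, g21, g22, g01, -⟩ := Ushape g hg
    obtain ⟨g00, g10, g20⟩ := (memU g).mp hg
    refine ⟨1, Subtype.ext (hMinj _ _ ?_)⟩
    show M (g ^ p ^ 1) = M 1
    have hpow : ∀ n : ℕ, M (g ^ n) = M g ^ n := fun n => by
      induction n with
      | zero => exact hMone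
      | succ n ih => rw [pow_succ, hMmul, ih, pow_succ]
    set E : Matrix (Fin 3) (Fin 3) F := M g - 1 with hE
    have hE3 : E ^ 3 = 0 := by
      rw [pow_succ, pow_two]
      ext i j
      fin_cases i <;> fin_cases j <;>
        simp [hE, mul_apply, Fin.sum_univ_three, g00, g10, g20, g11, g21, g22]
    rw [pow_one, hpow, hMone, show M g = E + 1 from (sub_add_cancel _ _).symm,
      add_pow_char_of_commute (Commute.one_right E) (p := p), one_pow,
      show p = 3 + (p - 3) by omega, pow_add, hE3, zero_mul, zero_add]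
  have hUi : ¬ p ∣ U.index := by
    obtain ⟨P, hP⟩ := hUp.exists_le_sylow
    suffices hPU : (P : Subgroup ↥(antiSU F q)) = U by rw [← hPU]; exact P.not_dvd_index
    refine le_antisymm ?_ hP
    letI act : MulAction ↥(P : Subgroup ↥(antiSU F q)) (Fin 3 → F) :=
      { smul := fun g v => M g *ᵥ v
        one_smul := fun v => one_mulVec v
        mul_smul := fun g g' v => (mulVec_mulVec v _ _).symm }
    have h0 : (0 : Fin 3 → F) ∈ MulAction.fixedPoints ↥(P : Subgroup ↥(antiSU F q)) (Fin 3 → F) := fun g => mulVec_zero _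
    have hcard : p ∣ Nat.card (Fin 3 → F) := by
      rw [Nat.card_fun, Nat.card_eq_fintype_card, hF, ← pow_mul]
      refine dvd_pow_self p ?_
      simp only [Nat.card_fin]
      omega
    obtain ⟨f, hf, hf0⟩ := P.isPGroup'.exists_fixed_point_of_prime_dvd_card_of_fixed_point _ hcard h0
    have hf1 : M u₁ *ᵥ f = f := hf ⟨u₁, hP hu₁U⟩
    rw [hu₁] at hf1
    have f0 := congrFun hf1 0
    have f1 := congrFun hf1 1
    simp [mulVec, dotProduct, Fin.sum_univ_three] at f0 f1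
    rw [f1] at f0
    have f0' : f 1 = 0 := by simpa using f0
    have hfe : f = f 0 • e₀ := by
      ext i; fin_cases i <;> simp [e₀, f1, f0']
    have hne : f 0 ≠ 0 := fun h => hf0 (by rw [hfe, h, zero_smul])
    intro g hg
    have hg' : M g *ᵥ f = f := hf ⟨g, hg⟩
    rw [hfe, mulVec_smul] at hg'
    exact smul_right_injective _ hne hg'
  refine ⟨U, h, w, ⟨hUp, hUi, ?_, ?_, ?_, ?_, ?_, ?_, ?_, ?_⟩⟩
  · rw [hNU, memB]; simp [hh]
  · intro g hg hc
    obtain ⟨g11, g21, g22, g01, -⟩ := Ushape g hg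
    obtain ⟨g00, g10, g20⟩ := (memU g).mp hg
    have e := congrArg M hc
    rw [hMmul, hMmul, hh] at e
    have e12 := congrFun (congrFun e 1) 2
    have e02 := congrFun (congrFun e 0) 2
    simp [mul_apply, Fin.sum_univ_three] at e12 e02
    field_simp at e12 e02
    have hb : M g 1 2 = 0 := by linear_combination e12
    have hc0 : M g 0 2 = 0 := by
      have : (3 : F) * M g 0 2 = 0 := by linear_combination e02
      exact (mul_eq_zero.mp this).resolve_left h3
    apply hMinj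
    rw [hMone]
    ext i j
    fin_cases i <;> fin_cases j <;> simp [g00, g10, g20, g11, g21, g22, g01, hb, hc0, h0q]
  · rw [memU]
    have hpow : ∀ n : ℕ, M (h ^ n) = !![(2:F) ^ n, 0, 0; 0, 1, 0; 0, 0, (2⁻¹ : F) ^ n] := fun n => by
      induction n with
      | zero => rw [pow_zero, hMone]; ext i j; fin_cases i <;> fin_cases j <;> simp
      | succ n ih =>
        rw [pow_succ, hMmul, ih, hh]
        ext i j; fin_cases i <;> fin_cases j <;> simp [mul_apply, Fin.sum_univ_three, pow_succ]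
    rw [hpow]; simp [two_pow_sub_one hp]
  · let χ : ↥B →* F :=
      { toFun := fun g => M g 0 0
        map_one' := by simp [hMone]
        map_mul' := fun g g' => by
          show M (g * g' : ↥(antiSU F q)) 0 0 = _
          rw [hMmul]
          simp [mul_apply, Fin.sum_univ_three, ((memB _).mp g'.2).1, ((memB _).mp g'.2).2] }
    let χu : ↥B →* Fˣ := χ.toHomUnits
    obtain ⟨⟨_, g₀, rfl⟩, hgen⟩ := IsCyclic.exists_generator (α := χu.range)
    refine ⟨g₀, by rw [hNU]; exact g₀.2, fun y hy => ?_⟩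
    rw [hNU] at hy
    obtain ⟨k, hk⟩ := (mem_powers_iff_mem_zpowers.mpr (hgen ⟨_, ⟨y, hy⟩, rfl⟩) :
      (⟨χu ⟨y, hy⟩, _⟩ : χu.range) ∈ Submonoid.powers ⟨χu g₀, g₀, rfl⟩)
    refine ⟨k, ?_⟩
    have hk1 : χu g₀ ^ k = χu ⟨y, hy⟩ := congrArg Subtype.val hk
    have hk2 : χu ((g₀ ^ k)⁻¹ * ⟨y, hy⟩) = 1 := by rw [map_mul, map_inv, map_pow, hk1, inv_mul_cancel]
    have hk3 : M (((g₀ : ↥(antiSU F q)) ^ k)⁻¹ * y) 0 0 = 1 := congrArg Units.val hk2
    have hmem : ((g₀ : ↥(antiSU F q)) ^ k)⁻¹ * y ∈ B := B.mul_mem (B.inv_mem (B.pow_mem g₀.2 k)) hy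
    rw [memU]
    exact ⟨hk3, ((memB _).mp hmem).1, ((memB _).mp hmem).2⟩
  · rw [hNU, memB]; simp [hw]
  · intro x hx
    rw [hNU, memB] at hx
    have r00 := rel x 0 0
    simp [antiForm, h0q] at r00
    have hv2 : M x 2 0 ≠ 0 := by
      intro h'
      apply hx
      refine ⟨hsol _ ?_, h'⟩
      simpa [h', h0q] using r00
    set b := M x 1 0 / M x 2 0
    set c := M x 0 0 / M x 2 0
    have hbc : c + c ^ q + b * b ^ q = 0 := by
      have hz : M x 2 0 ^ q ≠ 0 := pow_ne_zero q hv2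
      simp only [b, c, div_pow]
      field_simp
      linear_combination r00
    obtain ⟨u, hu⟩ := mkU b c hbc
    refine ⟨u, (memU u).mpr (by simp [hu]), map_conj_eq_of_mem _ _ _ ?_⟩
    rw [hNU, memB]
    have e1 : M x *ᵥ e₀ = M x 2 0 • (M (u * w) *ᵥ e₀) := by
      rw [hMmul, hu, hw, he₀]
      ext i
      fin_cases i <;> simp [e₀, b, c, mulVec, dotProduct, Fin.sum_univ_three, mul_apply] <;> field_simp
    have e2 : M ((u * w)⁻¹ * x) *ᵥ e₀ = M x 2 0 • e₀ := by
      rw [hMmul, ← mulVec_mulVec, e1, mulVec_smul, mulVec_mulVec, hMinv, one_mulVec]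
    rw [he₀] at e2
    exact ⟨by simpa [e₀] using congrFun e2 1, by simpa [e₀] using congrFun e2 2⟩
  · intro g hg hn
    rw [mem_normalizer_conj_iff, hNU, memB, hwinv, hMmul, hMmul, hw] at hn
    obtain ⟨g11, g21, g22, g01, -⟩ := Ushape g hg
    obtain ⟨g00, g10, g20⟩ := (memU g).mp hg
    simp [mul_apply, Matrix.vecMul, dotProduct, Fin.sum_univ_three] at hn
    apply hMinj
    rw [hMone]
    ext i j
    fin_cases i <;> fin_cases j <;> simp [g00, g10, g20, g11, g21, g22, g01, hn.1, hn.2, h0q]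
  · intro k hk
    have k1 := (mem_normalizer_conj_iff _ _ _).mp (hk 1)
    have k2 := (mem_normalizer_conj_iff _ _ _).mp (hk w)
    have k3 := (mem_normalizer_conj_iff _ _ _).mp (hk (u₁ * w))
    rw [inv_one, one_mul, mul_one, hNU, memB] at k1
    rw [hNU, memB, hwinv, hMmul, hMmul, hw] at k2
    simp [mul_apply, Matrix.vecMul, dotProduct, Fin.sum_univ_three] at k2
    obtain ⟨k12, k02⟩ := k2
    obtain ⟨k10, k20⟩ := k1
    have r00 := rel k 0 2
    have r01 := rel k 1 0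
    have r21 := rel k 1 2
    simp [antiForm, h0q, k10, k20, k12, k02] at r00 r01 r21
    have hne0 : M k 0 0 ≠ 0 := by intro h'; simp [h'] at r00
    have hne2 : M k 2 2 ≠ 0 := by intro h'; simp [h', h0q] at r00
    have k21 : M k 2 1 = 0 := r01.resolve_right (by simp [hne0])
    have k01 : M k 0 1 = 0 := r21.resolve_right (by simp [hne2])
    have hu₁' : u₁⁻¹ ∈ U := U.inv_mem hu₁U
    -- `k` also fixes the line through `u₁ f`
    rw [hNU] at k3
    have e1 : M (u₁ * w) *ᵥ e₀ = ![-2⁻¹, 1, 1] := by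
      rw [hMmul, hu₁, hw]
      ext i; fin_cases i <;> simp [e₀, mulVec, dotProduct, Fin.sum_univ_three, mul_apply]
    have e2 : M k *ᵥ ![-(2:F)⁻¹, 1, 1] = M ((u₁ * w)⁻¹ * k * (u₁ * w)) 0 0 • ![-(2:F)⁻¹, 1, 1] := by
      have e3 : M ((u₁ * w)⁻¹ * k * (u₁ * w)) *ᵥ e₀ = M ((u₁ * w)⁻¹ * k * (u₁ * w)) 0 0 • e₀ := by
        rw [he₀, ((memB _).mp k3).1, ((memB _).mp k3).2]; simp [e₀]
      have e4 : M (u₁ * w) *ᵥ _ = M (u₁ * w) *ᵥ _ := congrArg (fun v => M (u₁ * w) *ᵥ v) e3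
      rw [mulVec_smul, mulVec_mulVec, ← hMmul, mul_assoc (u₁ * w)⁻¹, mul_inv_cancel_left, hMmul,
        ← mulVec_mulVec, e1] at e4
      rw [← mul_assoc (u₁ * w)⁻¹] at e4; exact e4
    have a0 := congrFun e2 0
    have a1 := congrFun e2 1
    have a2 := congrFun e2 2
    simp [mulVec, dotProduct, Fin.sum_univ_three, k10, k20, k12, k02, k01, k21] at a0 a1 a2
    have hd01 : M k 0 0 = M k 2 2 := by
      rw [a2]
      exact a0.resolve_right h2
    have hd12 : M k 1 1 = M k 2 2 := by rw [a1, a2]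
    have hdet : (M k).det = 1 := (k : SpecialLinearGroup (Fin 3) F).2
    rw [det_fin_three] at hdet
    simp [k10, k20, k12, k02, k01, k21, hd01, hd12] at hdet
    have hscal : M k = M k 2 2 • (1 : Matrix (Fin 3) (Fin 3) F) := by
      ext i j; fin_cases i <;> fin_cases j <;> simp [k10, k20, k12, k02, k01, k21, hd01, hd12]
    have hk3 : k ^ 3 = 1 := by
      apply hMinj
      rw [pow_succ, pow_two, hMmul, hMmul, hMone, hscal]
      rw [smul_mul_smul_comm, smul_mul_smul_comm, one_mul, one_mul]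
      rw [hdet, one_smul]
    rw [show (6 : ℕ) = 3 * 2 from rfl, pow_mul, hk3, one_pow]

theorem isRankOne_SU3 (F : Type*) [Field F] [Fintype F] {p a : ℕ} [Fact p.Prime] [CharP F p] (hp : 5 ≤ p)
    (ha : 1 ≤ a) (hF : Fintype.card F = p ^ (2 * a)) : IsRankOne p ↥(Cfsg.SU 3 F (p ^ a)) := by
  classical
  set q := p ^ a with hq
  have hFq : Fintype.card F = q ^ 2 := by rw [hF, hq, ← pow_mul, mul_comm]
  obtain ⟨h2, -⟩ := two_ne_zero_of (F := F) hp
  obtain ⟨α, hα⟩ := exists_norm_eq hFq (a := (-1 : F)) (by rw [neg_pow_q hFq, one_pow])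
  have hα0 : α ≠ 0 := by intro h; rw [h, zero_pow (Nat.succ_ne_zero q)] at hα; norm_num at hα
  let P : Matrix (Fin 3) (Fin 3) F := !![1, 0, 2⁻¹; α, 0, -(α * 2⁻¹); 0, 1, 0]
  have hPdet : P.det ≠ 0 := by
    simp [P, det_fin_three]
    field_simp
    simpa [h2, one_add_one_eq_two] using hα0
  have hPu : IsUnit P.det := isUnit_iff_ne_zero.mpr hPdet
  have hh : (2⁻¹ : F) ^ q = 2⁻¹ := by
    have h2q : (2 : F) ^ q = 2 := by
      have := congrArg (ZMod.castHom (dvd_refl p) F) (ZMod.pow_card_pow (n := a) ((2 : ℕ) : ZMod p))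
      rw [map_pow, map_natCast] at this
      exact_mod_cast this
    rw [inv_pow, h2q]
  have hform : ∀ u v, Cfsg.hermForm 3 F q (P *ᵥ u) (P *ᵥ v) = antiForm q u v := by
    intro u v
    simp only [Cfsg.hermForm, antiForm, mulVec, dotProduct, Fin.sum_univ_three]
    simp [P, add_pow_q hFq, mul_pow, neg_pow_q hFq, hh, zero_pow_q hFq]
    rw [show α ^ (q + 1) = α * α ^ q from by ring] at hα
    have h22 : (2⁻¹ : F) * 2 = 1 := inv_mul_cancel₀ h2
    linear_combination ((u 0 - u 2 * 2⁻¹) * (v 0 ^ q - v 2 ^ q * 2⁻¹)) * hα + (u 0 * v 2 ^ q + u 2 * v 0 ^ q) * h22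
  let φ : SpecialLinearGroup (Fin 3) F ≃* SpecialLinearGroup (Fin 3) F :=
    { toFun := fun g => ⟨P * (g : Matrix (Fin 3) (Fin 3) F) * P⁻¹, by
        rw [det_mul, det_mul, det_nonsing_inv, g.2, mul_one, Ring.mul_inverse_cancel _ hPu]⟩
      invFun := fun g => ⟨P⁻¹ * (g : Matrix (Fin 3) (Fin 3) F) * P, by
        rw [det_mul, det_mul, det_nonsing_inv, g.2, mul_one, Ring.inverse_mul_cancel _ hPu]⟩
      left_inv := fun g => Subtype.ext (by
        simp [Matrix.mul_assoc, nonsing_inv_mul _ hPu, nonsing_inv_mul_cancel_left _ _ hPu])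
      right_inv := fun g => Subtype.ext (by
        simp [Matrix.mul_assoc, mul_nonsing_inv _ hPu, mul_nonsing_inv_cancel_left _ _ hPu])
      map_mul' := fun g g' => Subtype.ext (by
        show P * _ * P⁻¹ = P * _ * P⁻¹ * (P * _ * P⁻¹)
        simp [Matrix.mul_assoc, nonsing_inv_mul_cancel_left _ _ hPu]) }
  have hsymm : ∀ g : SpecialLinearGroup (Fin 3) F,
      ((φ.symm g : SpecialLinearGroup (Fin 3) F) : Matrix (Fin 3) (Fin 3) F) = P⁻¹ * (g : Matrix (Fin 3) (Fin 3) F) * P :=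
    fun g => rfl
  have hmap : (antiSU F q).map φ.toMonoidHom = Cfsg.SU 3 F q := by
    ext g
    simp only [mem_map_equiv]
    constructor
    · intro hg u v
      have := antiForm_col hg (P⁻¹ *ᵥ u) (P⁻¹ *ᵥ v)
      rw [← hform, ← hform, hsymm] at this
      simp only [Matrix.mulVec_mulVec, Matrix.mul_assoc, mul_nonsing_inv _ hPu,
        mul_nonsing_inv_cancel_left _ _ hPu, mul_one, one_mulVec] at this
      exact this
    · intro hg u v
      show antiForm q (((φ.symm g : SpecialLinearGroup (Fin 3) F) : Matrix (Fin 3) (Fin 3) F) *ᵥ u)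
        (((φ.symm g : SpecialLinearGroup (Fin 3) F) : Matrix (Fin 3) (Fin 3) F) *ᵥ v) = _
      rw [← hform, ← hform, hsymm]
      have : Cfsg.hermForm 3 F q ((g : Matrix (Fin 3) (Fin 3) F) *ᵥ (P *ᵥ u))
          ((g : Matrix (Fin 3) (Fin 3) F) *ᵥ (P *ᵥ v)) = Cfsg.hermForm 3 F q (P *ᵥ u) (P *ᵥ v) := hg _ _
      simpa only [Matrix.mulVec_mulVec, Matrix.mul_assoc, mul_nonsing_inv_cancel_left _ _ hPu] using this
  exact (isRankOne_antiSU hp ha hF).of_mulEquiv ((φ.subgroupMap (antiSU F q)).trans (MulEquiv.subgroupCongr hmap))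

end CfsgLib.RankOneSylow
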